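import Cfsg.Agent.H8.Deg1
import Cfsg.Agent.H26.SylCount
import Cfsg.Agent.H4.Burnside
import Cfsg.Agent.H9.Stab
import Cfsg.Agent.H1.Cores
import Cfsg.Prelude.Def_CaseTheorems

/-! A simple normal section over the `p'`-core when `p` divides the order exactly once. -/

set_option autoImplicit false
set_option linter.style.haveILetI false

namespace Cfsg.Agent.DG6
open Cfsg Subgroup

variable {G : Type*} [Group G] [Finite G]

namespace PG

theorem no_ab (hρ : ∀ q, q.Prime → q ∣ Nat.card G → q ∈ degreePrimes G) {q : ℕ} (hq : q.Prime)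
    (h : q ∣ Nat.card G) {A : Subgroup G} [A.Normal] (hA : ∀ a ∈ A, ∀ b ∈ A, a * b = b * a) :
    q ∣ A.index := by
  obtain ⟨-, d, hd, h1⟩ := hρ q hq h
  exact h1.trans (H8.cd_dvd_index_of_comm hA hd)

theorem idx {p q : ℕ} [hp : Fact p.Prime] [hq : Fact q.Prime] (hne : q ≠ p) {X Q : Subgroup G}
    (hX : IsPGroup p X) (hQ : IsPGroup q Q) (hn : X ≤ normalizer (Q : Set G))
    (hc : ¬ X ≤ centralizer (Q : Set G)) :
    ∃ k, k ≠ 0 ∧ (centralizer (X : Set G)).relIndex Q = q ^ k ∧ q ^ k % p = 1 := by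
  obtain ⟨n, hn'⟩ := IsPGroup.iff_card.1 hQ
  have h1 := H26.relIndex_centralizer_modEq_one hX hn (by
    rw [hn']
    exact fun h => hne ((Nat.prime_dvd_prime_iff_eq hp.out hq.out).1 (hp.out.dvd_of_dvd_pow h)).symm)
  have h2 : (centralizer (X : Set G)).relIndex Q ∣ q ^ n := hn' ▸ relIndex_dvd_card _ _
  obtain ⟨k, -, hk⟩ := (Nat.dvd_prime_pow hq.out).1 h2
  refine ⟨k, ?_, hk, ?_⟩
  · rintro rfl
    rw [pow_zero, relIndex_eq_one] at hk
    exact hc (le_centralizer_iff.1 hk)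
  · rw [hk] at h1
    exact Eq.trans h1 (Nat.mod_eq_of_lt hp.out.one_lt)

theorem full {p q : ℕ} [hp : Fact p.Prime] [hq : Fact q.Prime] (hne : q ≠ p) {X Q : Subgroup G}
    (hX : IsPGroup p X) (hQ : IsPGroup q Q) (hn : X ≤ normalizer (Q : Set G))
    (hc : ¬ X ≤ centralizer (Q : Set G))
    (h : ∀ d, d ∣ Nat.card G → IsPrimePow d → d % p = 1 → ¬ d * d.minFac ∣ Nat.card G) :
    centralizer (X : Set G) ⊓ Q = ⊥ ∧ ¬ q ∣ Q.index := by
  obtain ⟨k, hk, e, hm⟩ := idx hne hX hQ hn hc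
  have h1 := H1.card_inf_mul_relIndex (centralizer (X : Set G)) Q
  rw [e] at h1
  have h2 := h (q ^ k) ((Dvd.intro_left _ h1).trans (card_subgroup_dvd_card Q))
    ⟨q, k, hq.out.prime, Nat.pos_of_ne_zero hk, rfl⟩ hm
  rw [hq.out.pow_minFac hk] at h2
  have h3 : centralizer (X : Set G) ⊓ Q = ⊥ := by
    rcases (hQ.to_inf_right (H := centralizer (X : Set G))).card_eq_or_dvd with h4 | ⟨c, h4⟩
    · exact card_eq_one.1 h4
    · refine absurd (Dvd.dvd.trans ⟨c, ?_⟩ (card_subgroup_dvd_card Q)) h2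
      rw [← h1, h4]; ring
  refine ⟨h3, fun ⟨c, h4⟩ => h2 ⟨c, ?_⟩⟩
  rw [h3, card_bot, one_mul] at h1
  rw [← Q.card_mul_index, h4, h1]; ring

theorem cen_core {p : ℕ} [hp : Fact p.Prime] {q : ℕ} [hq : Fact q.Prime] (hne : q ≠ p)
    (hρ : ∀ q, q.Prime → q ∣ Nat.card G → q ∈ degreePrimes G) {X Q : Subgroup G} [Q.Normal]
    (hX : IsPGroup p X) (hQ : IsPGroup q Q)
    (h : ∀ d, d ∣ Nat.card G → IsPrimePow d → d % p = 1 → ¬ d * d.minFac ∣ Nat.card G) :
    X ≤ centralizer (Q : Set G) := by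
  by_contra hc
  have h1 := (full hne hX hQ le_normalizer_of_normal hc h).1
  have h0 : Q ≠ ⊥ := by
    rintro rfl
    exact hc fun x _ y hy => by rw [mem_bot.1 hy]; simp
  haveI := (nontrivial_iff_ne_bot Q).2 h0
  haveI := hQ.center_nontrivial
  obtain ⟨⟨⟨z, hz⟩, hz2⟩, hz1⟩ := exists_ne (1 : center Q)
  have hzZ : z ∈ Q ⊓ centralizer (Q : Set G) :=
    ⟨hz, fun y hy => congrArg Subtype.val (mem_center_iff.1 hz2 ⟨y, hy⟩)⟩
  have h2 := (full (Q := Q ⊓ centralizer (Q : Set G)) hne hX hQ.to_inf_left le_normalizer_of_normal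
    (fun h3 => by
      have : z ∈ centralizer (X : Set G) ⊓ Q := ⟨le_centralizer_iff.1 h3 hzZ, hz⟩
      rw [h1, mem_bot] at this
      exact hz1 (Subtype.ext (Subtype.ext this))) h).2
  refine h2 (no_ab hρ hq.out ((hQ.card_eq_or_dvd.resolve_left Finite.one_lt_card.ne').trans
    (card_subgroup_dvd_card Q)) fun a ha b hb => hb.2 a ha.1)

theorem simple_of_min {p : ℕ} (hp : p.Prime) (h2 : ¬ p ^ 2 ∣ Nat.card G)
    (hO : pPrimeCore p G = ⊥) {T : Subgroup G} [hT : T.Normal] (h0 : T ≠ ⊥)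
    (hm : ∀ K : Subgroup G, K.Normal → K ≠ ⊥ → K ≤ T → K = T) :
    IsSimpleGroup T ∧ p ∣ Nat.card T := by
  have key : ∀ K : Subgroup T, K.Normal → K ≠ ⊥ → p ∣ Nat.card K := fun K hK hK0 => by
    by_contra hd
    have h1 : K ≤ pPrimeCore p T := H1.le_pPrimeCore ((hp.coprime_iff_not_dvd.2 hd).symm)
    have h3 := H1.map_subtype_pPrimeCore_le (p := p) T
    rw [hO, le_bot_iff, map_eq_bot_iff_of_injective _ T.subtype_injective] at h3
    exact hK0 (le_bot_iff.1 (h3 ▸ h1))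
  haveI hnt := (nontrivial_iff_ne_bot T).2 h0
  refine ⟨⟨fun K hK => ?_⟩, by simpa using key ⊤ inferInstance top_ne_bot⟩
  by_contra hh
  push Not at hh
  obtain ⟨M, ⟨h3, h4, h5⟩, hmin⟩ := (wellFounded_lt (α := Subgroup T)).has_min
    {M | M.Normal ∧ M ≠ ⊥ ∧ M ≤ K} ⟨K, hK, hh.1, le_rfl⟩
  have hn : (M.map T.subtype).Normal := by
    constructor
    rintro _ ⟨m, hmM, rfl⟩ g
    let M' : Subgroup T := M.comap (MulAut.conjNormal g : MulAut T).toMonoidHom
    haveI : M'.Normal := h3.comap _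
    have hc : Nat.card M' = Nat.card M :=
      Nat.card_congr ((MulAut.conjNormal g : MulAut T).toEquiv.subtypeEquiv fun _ => Iff.rfl)
    have h6 : M ⊓ M' ≠ ⊥ := fun e => by
      have h7 := key M h3 h4
      have h8 : Nat.card ↥(M ⊔ M') = Nat.card M * Nat.card M' :=
        H1.card_sup_of_disjoint le_normalizer_of_normal e
      refine h2 (Dvd.dvd.trans ?_ ((card_subgroup_dvd_card (M ⊔ M')).trans (card_subgroup_dvd_card T)))
      rw [h8, hc, pow_two]
      exact mul_dvd_mul h7 h7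
    have h7 : M ⊓ M' = M := by
      by_contra h8
      exact hmin _ ⟨inferInstance, h6, inf_le_left.trans h5⟩ (lt_of_le_of_ne inf_le_left h8)
    exact ⟨_, (inf_eq_left.1 h7 hmM : _), rfl⟩
  have h6 := hm _ hn (fun e => h4 ((map_eq_bot_iff_of_injective _ T.subtype_injective).1 e))
    (map_subtype_le M)
  refine hh.2 (eq_top_iff.2 fun t _ => h5 ?_)
  obtain ⟨m, hmM, e⟩ : (t : G) ∈ M.map T.subtype := h6.symm ▸ t.2
  exact (Subtype.ext e : m = t) ▸ hmM

end PG

theorem sect {p : ℕ} (hp : p.Prime) (h1 : p ∣ Nat.card G) (h2 : ¬ p ^ 2 ∣ Nat.card G)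
    (hρ : ∀ q, q.Prime → q ∣ Nat.card G → q ∈ degreePrimes G)
    (hq : (∀ d, d ∣ Nat.card G → IsPrimePow d → d % p ≠ 1) ∨
      ((∀ r, r.Prime → r ∣ Nat.card G → r = p ∨ r = 2 ∨ r = 3) ∧
        ∀ d, d ∣ Nat.card G → IsPrimePow d → d % p = 1 → ¬ d * d.minFac ∣ Nat.card G)) :
    ∃ T : Subgroup (G ⧸ pPrimeCore p G), T.Normal ∧ IsSimpleGroup T ∧ ¬ IsMulCommutative T ∧
      p ∣ Nat.card T := by
  haveI := Fact.mk hp
  have hpN : ¬ p ∣ Nat.card (pPrimeCore p G) := H1.not_dvd_card_pPrimeCore p G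
  obtain ⟨x, hx⟩ := exists_prime_orderOf_dvd_card' p h1
  have hX : IsPGroup p (zpowers x) := IsPGroup.of_card (n := 1) (by rw [Nat.card_zpowers, hx, pow_one])
  have hxN : x ∉ (pPrimeCore p G) := fun h => hpN (hx.symm.dvd.trans ((pPrimeCore p G).orderOf_dvd_natCard h))
  have hG2 : ¬ p ^ 2 ∣ Nat.card (G ⧸ (pPrimeCore p G)) := fun h => h2 (h.trans (card_quotient_dvd_card (pPrimeCore p G)))
  obtain ⟨T, ⟨hT, hT0⟩, hmin⟩ := (wellFounded_lt (α := Subgroup (G ⧸ (pPrimeCore p G)))).has_min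
    {M | M.Normal ∧ M ≠ ⊥} ⟨⊤, inferInstance, fun e => hxN ((QuotientGroup.eq_one_iff x).1
      (mem_bot.1 (e ▸ mem_top _)))⟩
  obtain ⟨hs, hd⟩ := PG.simple_of_min hp hG2 (H1.pPrimeCore_quotient_pPrimeCore p) hT0
    fun K hK hK0 hKT => by
      by_contra h
      exact hmin K ⟨hK, hK0⟩ (lt_of_le_of_ne hKT h)
  refine ⟨T, hT, hs, fun hc => ?_, hd⟩
  obtain ⟨M, hM⟩ : ∃ M : Subgroup G, M = T.comap (QuotientGroup.mk' (pPrimeCore p G)) := ⟨_, rfl⟩
  haveI : M.Normal := hM ▸ hT.comap _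
  have hxM : x ∈ M := by
    rw [hM]
    have h3 : ¬ p ∣ T.index := fun h => hG2 (by
      rw [← T.card_mul_index, pow_two]; exact mul_dvd_mul hd h)
    have h4 : orderOf (QuotientGroup.mk' T (QuotientGroup.mk' (pPrimeCore p G) x)) ∣ p :=
      ((orderOf_map_dvd _ _).trans (orderOf_map_dvd _ _)).trans hx.dvd
    have h5 : orderOf (QuotientGroup.mk' T (QuotientGroup.mk' (pPrimeCore p G) x)) ∣ T.index :=
      orderOf_dvd_natCard _
    have h6 := orderOf_eq_one_iff.1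
      (Nat.eq_one_of_dvd_coprimes (hp.coprime_iff_not_dvd.2 h3) h4 h5)
    exact (QuotientGroup.eq_one_iff (N := T) _).1 h6
  have hsol : ∀ K : Subgroup G, K ≤ M → Group.IsSolvable ↥(K ⊓ (pPrimeCore p G)) → Group.IsSolvable K := by
    intro K hK hKs
    rw [hM] at hK
    haveI : Group.IsSolvable T := Group.isSolvable_of_comm fun a b => hc.is_comm.comm a b
    refine Group.isSolvable_of_ker_le_range (inclusion (inf_le_left : K ⊓ (pPrimeCore p G) ≤ K))
      (((QuotientGroup.mk' (pPrimeCore p G)).comp K.subtype).codRestrict T fun k => hK k.2) fun k hk => ?_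
    exact ⟨⟨k, k.2, (QuotientGroup.eq_one_iff _).1 (congrArg Subtype.val hk)⟩, rfl⟩
  have hcore : pCore p G = ⊥ := by
    obtain ⟨k, hk⟩ := IsPGroup.iff_card.1 (H1.isPGroup_pCore p G)
    rcases k with _ | _ | k
    · exact card_eq_one.1 hk
    · haveI := isCyclic_of_prime_card (hk.trans (pow_one p))
      obtain ⟨c, e⟩ := PG.no_ab hρ hp h1 (A := pCore p G) fun a ha b hb =>
        congrArg Subtype.val (IsCyclic.isMulCommutative.is_comm.comm (⟨a, ha⟩ : pCore p G) ⟨b, hb⟩)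
      exact absurd ⟨c, by rw [← (pCore p G).card_mul_index, hk, e]; ring⟩ h2
    · exact absurd ((pow_dvd_pow p (by omega)).trans (hk ▸ card_subgroup_dvd_card _)) h2
  have fin : ∀ K : Subgroup G, K.Normal → x ∈ K → Group.IsSolvable K →
      (∀ q : ℕ, q.Prime → q ≠ p → zpowers x ≤ centralizer (pCore q G : Set G)) → False := by
    intro K hK hxK hKs hcen
    have h3 : x ∈ centralizer (fittingSubgroup G : Set G) := by
      refine (le_centralizer_iff.1 ?_ : zpowers x ≤ _) (mem_zpowers x)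
      rw [H1.fittingSubgroup_eq_iSup_pCore]
      refine iSup_le fun q => ?_
      by_cases e : (q : ℕ) = p
      · rw [e, hcore]; exact bot_le
      · exact le_centralizer_iff.1 (hcen q q.2 e)
    have h4 : K ⊓ centralizer (fittingSubgroup G : Set G) ≤ fittingSubgroup G :=
      H1.le_fittingSubgroup_of_le_centralizer (H1.isSolvable_of_le inf_le_left hKs) inf_le_right
    have h5 := H1.le_pCore_of_le_fittingSubgroup hX (zpowers_le.2 (h4 ⟨hxK, h3⟩))
    rw [hcore] at h5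
    exact hxN (mem_bot.1 (h5 (mem_zpowers x)) ▸ one_mem _)
  rcases hq with hq | ⟨hq1, hq2⟩
  · have h3 : zpowers x ≤ centralizer ((pPrimeCore p G) : Set G) := by
      by_contra hcn
      obtain ⟨q, hq', hne, R, -, hR, -, hn, hc'⟩ := H9.exists_invariant_qSubgroup hX
        (H1.coprime_card_pPrimeCore p G) le_normalizer_of_normal hcn
      haveI := Fact.mk hq'
      obtain ⟨k, hk, e, hm⟩ := PG.idx hne hX hR hn hc'
      exact hq (q ^ k) (e ▸ (relIndex_dvd_card _ _).trans (card_subgroup_dvd_card R))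
        ⟨q, k, hq'.prime, Nat.pos_of_ne_zero hk, rfl⟩ hm
    refine fin (M ⊓ centralizer ((pPrimeCore p G) : Set G)) inferInstance ⟨hxM, h3 (mem_zpowers x)⟩
      (hsol _ inf_le_left (Group.isSolvable_of_comm fun a b => Subtype.ext (b.2.1.2 a a.2.2))) fun q hq' hne =>
      h3.trans (centralizer_le (H1.pCore_le_pPrimeCore ((Nat.coprime_primes hp hq').2 hne.symm)))
  · refine fin M inferInstance hxM (hsol _ le_rfl (H4.isSolvable_of_forall_prime_dvd Nat.prime_two
      Nat.prime_three fun r hr hd => ?_)) fun q hq' hne => ?_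
    · have h3 : r ∣ Nat.card (pPrimeCore p G) := hd.trans (card_dvd_of_le inf_le_right)
      exact (hq1 r hr (h3.trans (card_subgroup_dvd_card (pPrimeCore p G)))).resolve_left fun e => hpN (e ▸ h3)
    · haveI := Fact.mk hq'
      exact PG.cen_core hne hρ hX (H1.isPGroup_pCore q G) hq2

end Cfsg.Agent.DG6
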